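import Mathlib
import Cfsg.Agent.H686.Gagola
set_option linter.all false

/-!
# Gagola characters: centralizers outside `N` and the Sylow subgroup
-/

set_option autoImplicit false
set_option linter.unusedSectionVars false

namespace Cfsg.Agent.H686.GagolaSyl

open Cfsg Cfsg.Agent.Characters Cfsg.Agent.H686.CharKit Cfsg.Agent.H686.Gagola
open scoped ComplexConjugate

universe u

variable {G : Type u} [Group G] [Finite G] {χ : IrrCharacter G} {x : G}

theorem le_chKer_iff (hG : 2 < Nat.card G) (h : Dat χ x) (ψ : IrrCharacter G) :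
    nrm χ ≤ chKer ψ ↔ ψ ≠ χ := by
  constructor
  · rintro h1 rfl
    have h2 : x ∈ nrm ψ := (mem_nrm_iff hG h x).2 (Or.inr (IsConj.refl x))
    exact h.ne_one (faithful hG h (h1 h2))
  · intro hψ n hn
    exact mem_nrm.1 hn ψ hψ

theorem card_centralizer_quot (hG : 2 < Nat.card G) (h : Dat χ x) {y : G} (hy : y ∉ nrm χ) :
    Nat.card (Subgroup.centralizer ({y} : Set G))
      = Nat.card (Subgroup.centralizer ({(y : G ⧸ nrm χ)} : Set (G ⧸ nrm χ))) := by
  classical
  have : Finite (IrrCharacter G) := Core.finite_irr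
  have : Fintype (IrrCharacter G) := Fintype.ofFinite _
  have : Finite (IrrCharacter (G ⧸ nrm χ)) := Core.finite_irr
  have : Fintype (IrrCharacter (G ⧸ nrm χ)) := Fintype.ofFinite _
  have h1 := sum_normSq (G := G) y
  have h2 := sum_normSq (G := G ⧸ nrm χ) (y : G ⧸ nrm χ)
  have h3 : ∑ ψ : IrrCharacter (G ⧸ nrm χ), Complex.normSq ((ψ : G ⧸ nrm χ → ℂ) (y : G ⧸ nrm χ))
      = ∑ ψ : {ψ : IrrCharacter G // nrm χ ≤ chKer ψ}, Complex.normSq ((ψ.1 : G → ℂ) y) :=
    Fintype.sum_equiv (inflEquiv (nrm χ)) _ _ fun ψ => by rw [inflEquiv_apply]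
  have h4 : ∑ ψ : {ψ : IrrCharacter G // nrm χ ≤ chKer ψ}, Complex.normSq ((ψ.1 : G → ℂ) y)
      = ∑ ψ ∈ Finset.univ.filter (fun ψ : IrrCharacter G => nrm χ ≤ chKer ψ),
          Complex.normSq ((ψ : G → ℂ) y) := by
    rw [← Finset.sum_subtype (Finset.univ.filter (fun ψ : IrrCharacter G => nrm χ ≤ chKer ψ))
      (p := fun ψ : IrrCharacter G => nrm χ ≤ chKer ψ) (by simp)
      (fun ψ => Complex.normSq ((ψ : G → ℂ) y))]
  have h5 : ∑ ψ ∈ Finset.univ.filter (fun ψ : IrrCharacter G => nrm χ ≤ chKer ψ),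
      Complex.normSq ((ψ : G → ℂ) y) = ∑ ψ : IrrCharacter G, Complex.normSq ((ψ : G → ℂ) y) := by
    refine Finset.sum_subset (Finset.subset_univ _) fun ψ _ hψ => ?_
    rw [Finset.mem_filter, not_and] at hψ
    have h6 := hψ (Finset.mem_univ _)
    rw [le_chKer_iff hG h, not_not] at h6
    subst h6
    rw [map_eq_zero]
    by_contra hne
    exact hy ((ne_zero_iff hG h y).1 hne)
  have h7 : (Nat.card (Subgroup.centralizer ({y} : Set G)) : ℝ)
      = Nat.card (Subgroup.centralizer ({(y : G ⧸ nrm χ)} : Set (G ⧸ nrm χ))) := by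
    rw [← h1, ← h2, h3, h4, h5]
  exact_mod_cast h7

/-- If a `p`-group of order `p ^ c` centralizes `y ∉ N` then `p ^ c |N|` divides the order of
a Sylow subgroup. -/
theorem card_mul_le (hG : 2 < Nat.card G) (h : Dat χ x) {p : ℕ} [hp : Fact p.Prime]
    (hpg : IsPGroup p (nrm χ)) {y : G} (hy : y ∉ nrm χ) (P : Sylow p G) {C : Subgroup G}
    (hC : IsPGroup p C) (hCy : C ≤ Subgroup.centralizer ({y} : Set G)) :
    Nat.card C * Nat.card (nrm χ) ∣ Nat.card P := by
  obtain ⟨c, hc⟩ := IsPGroup.iff_card.1 hC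
  obtain ⟨a, ha⟩ := IsPGroup.iff_card.1 hpg
  have h1 : Nat.card C ∣ Nat.card (G ⧸ nrm χ) := by
    refine (Subgroup.card_dvd_of_le hCy).trans ?_
    rw [card_centralizer_quot hG h hy]
    exact Subgroup.card_subgroup_dvd_card _
  have h2 : Nat.card C * Nat.card (nrm χ) ∣ Nat.card G := by
    rw [Subgroup.card_eq_card_quotient_mul_card_subgroup (nrm χ)]
    exact Nat.mul_dvd_mul_right h1 _
  rw [hc, ha, ← pow_add] at h2 ⊢
  rw [Sylow.card_eq_multiplicity]
  exact pow_dvd_pow _ ((hp.out.pow_dvd_iff_le_factorization Nat.card_pos.ne').1 h2)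

theorem one_lt_card_nrm (hG : 2 < Nat.card G) (h : Dat χ x) : 1 < Nat.card (nrm χ) := by
  rw [card_nrm hG h]
  have := cls_pos x
  omega

theorem center_le (hG : 2 < Nat.card G) (h : Dat χ x) {p : ℕ} [hp : Fact p.Prime]
    (hpg : IsPGroup p (nrm χ)) (P : Sylow p G) :
    (Subgroup.center ↥(P : Subgroup G)).map (P : Subgroup G).subtype ≤ nrm χ := by
  intro z hz
  by_contra hzN
  obtain ⟨w, hw, rfl⟩ := Subgroup.mem_map.1 hz
  have h1 : (P : Subgroup G) ≤ Subgroup.centralizer ({((P : Subgroup G).subtype w)} : Set G) := by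
    intro g hg
    rw [Subgroup.mem_centralizer_iff]
    intro v hv
    rw [Set.mem_singleton_iff] at hv
    subst hv
    have := Subgroup.mem_center_iff.1 hw ⟨g, hg⟩
    exact (congrArg Subtype.val this).symm
  have h2 := Nat.le_of_dvd Nat.card_pos (card_mul_le hG h hpg hzN P P.2 h1)
  have h3 := one_lt_card_nrm hG h
  have h4 : 0 < Nat.card (P : Subgroup G) := Nat.card_pos
  have h5 : Nat.card (P : Subgroup G) * 1 < Nat.card (P : Subgroup G) * Nat.card (nrm χ) :=
    Nat.mul_lt_mul_of_pos_left h3 h4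
  have h6 : Nat.card (P : Subgroup G) * Nat.card (nrm χ) ≤ Nat.card (P : Subgroup G) := h2
  omega

theorem nrm_le_sylow {p : ℕ} [hp : Fact p.Prime] (hpg : IsPGroup p (nrm χ)) (P : Sylow p G) :
    nrm χ ≤ P := by
  have h1 : IsPGroup p ((P : Subgroup G) ⊔ nrm χ : Subgroup G) :=
    P.2.to_sup_of_normal_right hpg
  have h2 : (P : Subgroup G) ⊔ nrm χ = P := P.3 h1 le_sup_left
  exact le_sup_right.trans h2.le

theorem center_eq_iff (hG : 2 < Nat.card G) (h : Dat χ x) {p : ℕ} [hp : Fact p.Prime]
    (hpg : IsPGroup p (nrm χ)) (P : Sylow p G) :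
    (Subgroup.center ↥(P : Subgroup G)).map (P : Subgroup G).subtype = nrm χ ↔
      (P : Subgroup G).Normal := by
  constructor
  · intro hz
    have h1 : ∀ y ∈ nrm χ, y ≠ 1 → Subgroup.centralizer ({y} : Set G) = P := by
      intro y hy hy1
      obtain ⟨Q, hQ⟩ := exists_sylow hG (dat_of_mem hG h hy hy1) hpg
      have h2 : (P : Subgroup G) ≤ Q := by
        rw [← hQ]
        intro g hg
        rw [Subgroup.mem_centralizer_iff]
        intro v hv
        rw [Set.mem_singleton_iff] at hv
        subst hv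
        rw [← hz] at hy
        obtain ⟨w, hw, rfl⟩ := Subgroup.mem_map.1 hy
        have := Subgroup.mem_center_iff.1 hw ⟨g, hg⟩
        exact (congrArg Subtype.val this).symm
      rw [hQ]
      exact P.3 Q.2 h2
    have hx : x ∈ nrm χ := (mem_nrm_iff hG h x).2 (Or.inr (IsConj.refl x))
    constructor
    intro n hn g
    have h2 := h1 (g * x * g⁻¹) ((nrm_normal χ).conj_mem x hx g) (by
      intro h3
      apply h.ne_one
      have h4 : x = g⁻¹ * (g * x * g⁻¹) * g := by group
      rw [h4, h3]
      group)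
    rw [← h2]
    rw [← h1 x hx h.ne_one, Subgroup.mem_centralizer_iff] at hn
    have h3 := hn x rfl
    rw [Subgroup.mem_centralizer_iff]
    intro v hv
    rw [Set.mem_singleton_iff] at hv
    subst hv
    calc g * x * g⁻¹ * (g * n * g⁻¹) = g * (x * n) * g⁻¹ := by group
      _ = g * (n * x) * g⁻¹ := by rw [h3]
      _ = g * n * g⁻¹ * (g * x * g⁻¹) := by group
  · intro hP
    apply le_antisymm (center_le hG h hpg P)
    have : ((Subgroup.center ↥(P : Subgroup G)).map (P : Subgroup G).subtype).Normal :=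
      inferInstance
    apply nrm_le hG h
    rw [Ne, Subgroup.map_eq_bot_iff_of_injective _ (Subgroup.subtype_injective _)]
    have h1 : Nontrivial (P : Subgroup G) := by
      rw [Subgroup.nontrivial_iff_ne_bot]
      intro h2
      have h3 := nrm_le_sylow hpg P
      rw [h2, le_bot_iff] at h3
      exact nrm_ne_bot hG h h3
    exact P.2.bot_lt_center.ne'

theorem exists_upper (hG : 2 < Nat.card G) (h : Dat χ x) {p : ℕ} [hp : Fact p.Prime]
    (hpg : IsPGroup p (nrm χ)) (P : Sylow p G) :
    ∃ i : ℕ, Subgroup.upperCentralSeries ↥(P : Subgroup G) i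
      = (nrm χ).subgroupOf (P : Subgroup G) := by
  classical
  by_contra hcon
  push Not at hcon
  have hNP := nrm_le_sylow hpg P
  have hcardN : Nat.card ((nrm χ).subgroupOf (P : Subgroup G)) = Nat.card (nrm χ) :=
    Nat.card_congr (Subgroup.subgroupOfEquivOfLe hNP).toEquiv
  have hall : ∀ i, Subgroup.upperCentralSeries ↥(P : Subgroup G) i
      ≤ (nrm χ).subgroupOf (P : Subgroup G) := by
    intro i
    induction i with
    | zero =>
      rw [Subgroup.upperCentralSeries_zero]
      exact bot_le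
    | succ i ih =>
      intro y hy
      by_contra hyN
      rw [Subgroup.mem_subgroupOf] at hyN
      have hlt : Subgroup.upperCentralSeries ↥(P : Subgroup G) i
          < (nrm χ).subgroupOf (P : Subgroup G) := lt_of_le_of_ne ih (hcon i)
      -- the class of `y` in `P`
      set C : Subgroup ↥(P : Subgroup G) := Subgroup.centralizer ({y} : Set ↥(P : Subgroup G))
        with hC
      have h1 : C.index ≤ Nat.card (Subgroup.upperCentralSeries ↥(P : Subgroup G) i) := by
        rw [hC, index_centralizer, cls]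
        have hmem : ∀ z : {z : ↥(P : Subgroup G) // IsConj y z},
            z.1 * y⁻¹ ∈ Subgroup.upperCentralSeries ↥(P : Subgroup G) i := by
          intro z
          obtain ⟨c, hc⟩ := isConj_iff.1 z.2
          have h2 := Subgroup.mem_upperCentralSeries_succ_iff.1 hy c
          rw [commutatorElement_def] at h2
          have h3 : z.1 * y⁻¹ = (y * c * y⁻¹ * c⁻¹)⁻¹ := by
            rw [← hc]
            group
          rw [h3]
          exact inv_mem h2
        refine Nat.card_le_card_of_injective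
          (fun z => (⟨z.1 * y⁻¹, hmem z⟩ : Subgroup.upperCentralSeries ↥(P : Subgroup G) i)) ?_
        intro a b hab
        have h2 := congrArg Subtype.val hab
        exact Subtype.ext (mul_right_cancel h2)
      have h2 : Nat.card (Subgroup.upperCentralSeries ↥(P : Subgroup G) i)
          < Nat.card (nrm χ) := by
        rw [← hcardN]
        exact lt_of_le_of_ne (Subgroup.card_le_of_le hlt.le) fun h3 =>
          hlt.ne (Subgroup.eq_of_le_of_card_ge hlt.le h3.ge)
      have h3 : Nat.card (C.map (P : Subgroup G).subtype) * Nat.card (nrm χ) ∣ Nat.card P := by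
        refine card_mul_le hG h hpg hyN P ?_ ?_
        · exact (P.2.to_subgroup C).map _
        · rintro _ ⟨c, hc, rfl⟩
          rw [Subgroup.mem_centralizer_iff]
          intro v hv
          rw [Set.mem_singleton_iff] at hv
          subst hv
          have h4 := Subgroup.mem_centralizer_iff.1 hc y rfl
          exact congrArg Subtype.val h4
      rw [Nat.card_congr (C.equivMapOfInjective _ (Subgroup.subtype_injective _)).symm.toEquiv] at h3
      have h4 := Nat.le_of_dvd Nat.card_pos h3
      have h5 := C.card_mul_index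
      have h6 : Nat.card C * C.index < Nat.card C * Nat.card (nrm χ) :=
        Nat.mul_lt_mul_of_pos_left (lt_of_le_of_lt h1 h2) Nat.card_pos
      have h7 : Nat.card C * Nat.card (nrm χ) ≤ Nat.card (P : Subgroup G) := h4
      omega
  have hnil : Group.IsNilpotent ↥(P : Subgroup G) := P.2.isNilpotent
  obtain ⟨n, hn⟩ := hnil.nilpotent'
  refine hcon n (le_antisymm (hall n) ?_)
  rw [hn]
  exact le_top

end Cfsg.Agent.H686.GagolaSyl
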